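import Cfsg.Agent.FpC.E

set_option autoImplicit false
set_option linter.unusedSectionVars false

namespace Cfsg.Agent.FpC

open Subgroup
open scoped commutatorElement

universe u

section
variable {H : Type*} [Group H] [Finite H] {p : ℕ} [hp : Fact p.Prime] {x : MulAut H}

set_option maxHeartbeats 1000000 in
theorem Ctx.false [Group.IsSolvable H] (h : Ctx p x) : False := by
  have htne : (⊤ : Subgroup H) ≠ ⊥ := fun e => h.nle (le_top.trans (e ▸ bot_le))
  obtain ⟨V, -, hV, hs, hne, hmin, hcen, hF⟩ := h.minN inferInstance stb_top htne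
  have DV : D x ⊓ V = ⊥ := h.star (normal_of_cen fun n hn => hcen n hn.2)
    (stb_of_le_Fx (inf_le_left.trans D_le_Fx)) (inf_le_left.trans inf_le_left)
  have ZF : ∀ z ∈ Fx x, (∀ g, g * z = z * g) → z ∈ V := by
    intro z hz hzc
    obtain ⟨d, hd, v, hv, rfl⟩ := h.ihq V hV hs hne z hz
    have hdc : ∀ g, g * d = d * g := by
      intro g
      have := hzc g
      rw [← mul_assoc, mul_assoc d v g, ← hcen v hv.1 g, ← mul_assoc] at this
      exact mul_right_cancel this
    have hle : zpowers d ≤ D x := zpowers_le.2 hd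
    have := h.star (N := zpowers d) (normal_of_cen (by
      rintro _ ⟨i, rfl⟩ g
      exact (Commute.zpow_right (hdc g) i).eq)) (stb_of_le_Fx (hle.trans D_le_Fx))
      (inf_le_left.trans hle)
    rw [zpowers_eq_bot] at this
    rw [this, one_mul]; exact hv.1
  have all : ∀ N : Subgroup H, N.Normal → Stb x N → N ≠ ⊥ → V ≤ N := by
    intro N h1 h2 h3
    obtain ⟨V2, hle, hV2, hs2, hne2, -, hcen2, hF2⟩ := h.minN h1 h2 h3
    rw [← (hmin V2 hV2 hs2 fun v hv => ZF v (hF2 hv) (hcen2 v hv)).resolve_left hne2]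
    exact hle
  have CmV : ∀ K, Stb x K → K ≠ ⊤ → Cm x K ⊓ V = ⊥ := fun K hK hKt =>
    eq_bot_iff.2 (DV ▸ le_inf ((inf_le_inf_left _ hF).trans (h.ihs K hK hKt)) inf_le_right)
  have LV : ∀ a, L x a ⊓ V = ⊥ := fun a =>
    eq_bot_iff.2 (DV ▸ le_inf ((inf_le_inf_left _ hF).trans (L_inf_le_D a)) inf_le_right)
  have hVt : V < ⊤ := lt_top_iff_ne_top.2 fun e => htne (by
    rw [← h.top]; rw [h.top]; rw [← h.top]; exact Cm_eq_bot (e ▸ hF) ▸ rfl)
  obtain ⟨B, -, ⟨hB, hBs, hVB⟩, hm⟩ :=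
    exists_min (fun M : Subgroup H => M.Normal ∧ Stb x M ∧ V < M) ⟨inferInstance, stb_top, hVt⟩
  have hBmin : ∀ N : Subgroup H, N.Normal → Stb x N → V ≤ N → N ≤ B → N = V ∨ N = B := by
    intro N h1 h2 h3 h4
    by_cases e : N = V
    · exact Or.inl e
    · exact Or.inr (hm N ⟨h1, h2, lt_of_le_of_ne h3 (Ne.symm e)⟩ h4)
  have hBB : ∀ a ∈ B, ∀ b ∈ B, ⁅a, b⁆ ∈ V := by
    rcases hBmin (⁅B, B⁆ ⊔ V) inferInstance ((hBs.commutator hBs).sup hs) le_sup_right
      (sup_le (commutator_le_left _ _) hVB.le) with e | e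
    · intro a ha b hb
      rw [← e]
      exact (le_sup_left : ⁅B, B⁆ ≤ ⁅B, B⁆ ⊔ V) (commutator_mem_commutator ha hb)
    · exfalso
      have h1 := congrArg (Subgroup.map (QuotientGroup.mk' V)) e
      rw [Subgroup.map_sup, QuotientGroup.map_mk'_self, sup_bot_eq, map_commutator] at h1
      have h2 : B.map (QuotientGroup.mk' V) = ⊥ := by
        by_contra hne'
        exact (Group.IsSolvable.commutator_lt_of_ne_bot hne').ne h1
      rw [Subgroup.map_eq_bot_iff, QuotientGroup.ker_mk'] at h2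
      exact hVB.not_ge h2
  have hB1 : ¬ Cm x B ≤ V := by
    intro hle
    have h1 : Cm x B = ⊥ :=
      eq_bot_iff.2 ((Cm_le_Cm_Cm h.cop h.hx B).trans (Cm_eq_bot (hle.trans hF)).le)
    have h2 : B ≤ Fx x := fun b hb => by
      have : b⁻¹ * x b ∈ Cm x B := L_le_Cm hb (gen_mem1 b)
      rw [h1, mem_bot] at this
      exact (inv_mul_eq_one.1 this).symm
    refine hVB.not_ge fun b hb => ZF b (h2 hb) fun g => ?_
    have : Cm x ⊤ ≤ centralizer {b} := by
      refine Cm_le fun k _ => L_le fun i => mem_centralizer_singleton_iff.2 ?_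
      have e := pow_fix (h2 (hB.conj_mem b hb k)) i
      rw [map_mul, map_mul, map_inv, pow_fix (h2 hb)] at e
      calc k⁻¹ * (x ^ i) k * b = k⁻¹ * ((x ^ i) k * b * ((x ^ i) k)⁻¹) * (x ^ i) k := by group
        _ = _ := by rw [e]; group
    rw [h.top] at this
    exact mem_centralizer_singleton_iff.1 (this (mem_top g))
  let O : Subgroup H :=
    { carrier := {g | ∀ b ∈ B, ⁅g, b⁆ ∈ V}
      one_mem' := fun b _ => by simp
      mul_mem' := by
        intro g1 g2 h1 h2 b hb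
        have e : ⁅g1 * g2, b⁆ = g1 * ⁅g2, b⁆ * g1⁻¹ * ⁅g1, b⁆ := by
          simp only [commutatorElement_def]; group
        rw [e]
        exact mul_mem (hV.conj_mem _ (h2 b hb) _) (h1 b hb)
      inv_mem' := by
        intro g h1 b hb
        have e : ⁅g⁻¹, b⁆ = g⁻¹ * ⁅g, b⁆⁻¹ * g⁻¹⁻¹ := by
          simp only [commutatorElement_def]; group
        rw [e]
        exact hV.conj_mem _ (inv_mem (h1 b hb)) _ }
  have hO : ∀ {g}, g ∈ O ↔ ∀ b ∈ B, ⁅g, b⁆ ∈ V := Iff.rfl
  have On : O.Normal := ⟨fun g hg c => hO.2 fun b hb => by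
    have e : ⁅c * g * c⁻¹, b⁆ = c * ⁅g, c⁻¹ * b * c⁻¹⁻¹⁆ * c⁻¹ := by
      simp only [commutatorElement_def]; group
    rw [e]
    exact hV.conj_mem _ (hO.1 hg _ (hB.conj_mem _ hb _)) _⟩
  have Os : Stb x O := fun g hg => hO.2 fun b hb => by
    obtain ⟨b', hb', rfl⟩ := hBs.surj h.hx hb
    rw [← map_commutatorElement]
    exact hs _ (hO.1 hg b' hb')
  have BO : B ≤ O := fun a ha => hO.2 (hBB a ha)
  rcases hBmin (B ⊓ centralizer (O : Set H)) inferInstance (hBs.inf (Os.cent h.hx))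
    (le_inf hVB.le fun v hv g _ => hcen v hv g) inf_le_left with e0 | e0
  · obtain ⟨a, ha, l, hl, b, hb, hlb⟩ : ∃ a ∈ O, ∃ l ∈ L x a, ∃ b ∈ Cm x B, ⁅l, b⁆ ≠ 1 := by
      by_contra! hall
      apply hB1
      rw [← e0]
      refine le_inf (Cm_le_self hBs) fun b hb g hg => ?_
      obtain ⟨c, hc, n, hn, rfl⟩ := decomp h.cop h.hx Os hg
      have h1 : Cm x O ≤ centralizer {b} := Cm_le fun a ha l hl =>
        mem_centralizer_singleton_iff.2
          (commutatorElement_eq_one_iff_mul_comm.1 (hall a ha l hl b hb))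
      have h2 : Cm x B ≤ centralizer {c} := by
        refine Cm_le fun k hk => L_le fun i => mem_centralizer_singleton_iff.2 ?_
        have hv : ⁅c, k⁆ ∈ V := hO.1 hc.1 k hk
        have e1 := pow_fix (hF hv) i
        rw [map_commutatorElement, pow_fix hc.2] at e1
        have e2 : c * k * c⁻¹ = ⁅c, k⁆ * k := by simp only [commutatorElement_def]; group
        have e3 : c * (x ^ i) k * c⁻¹ = ⁅c, k⁆ * (x ^ i) k := by
          rw [← e1]; simp only [commutatorElement_def]; group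
        calc k⁻¹ * (x ^ i) k * c = (⁅c, k⁆ * k)⁻¹ * (⁅c, k⁆ * (x ^ i) k) * c := by group
          _ = _ := by rw [← e2, ← e3]; group
      have c1 := mem_centralizer_singleton_iff.1 (h1 hn)
      have c2 := mem_centralizer_singleton_iff.1 (h2 hb)
      rw [mul_assoc, c1, ← mul_assoc, ← c2, mul_assoc]
    have LO : L x a ≤ O := L_le_of_mem Os ha
    have hK : L x a ⊔ B = ⊤ := by
      by_contra hKt
      have a1 : l ∈ Cm x (L x a ⊔ B) := Cm_mono le_sup_left (L_le_Cm_L h.cop h.hx a hl)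
      have a2 : b ∈ Cm x (L x a ⊔ B) := Cm_mono le_sup_right hb
      have : ⁅l, b⁆ ∈ Cm x (L x a ⊔ B) ⊓ V :=
        mem_inf.2 ⟨mul_mem (mul_mem (mul_mem a1 a2) (inv_mem a1)) (inv_mem a2),
          hO.1 (LO hl) b (Cm_le_self hBs hb)⟩
      rw [CmV _ ((stb_L a).sup hBs) hKt, mem_bot] at this
      exact hlb this
    have Ot : ∀ g, ∀ b ∈ B, ⁅g, b⁆ ∈ V := fun g =>
      hO.1 ((hK ▸ sup_le LO BO : ⊤ ≤ O) (mem_top g))
    have hN : ⁅L x a, L x a⁆ = ⊥ := by
      have hle : ⁅L x a, L x a⁆ ≤ L x a := commutator_le.2 fun a1 h1 a2 h2 =>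
        mul_mem (mul_mem (mul_mem h1 h2) (inv_mem h1)) (inv_mem h2)
      by_contra hne'
      refine hne (eq_bot_iff.2 (LV a ▸ le_inf ((all _ (normal_of_gen hK (fun g hg n hn => ?_)
        fun b hb n hn => ?_) ((stb_L a).commutator (stb_L a)) hne').trans hle) le_rfl))
      · have : ⁅L x a, L x a⁆ ≤ (⁅L x a, L x a⁆).comap (MulAut.conj g : H →* H) := by
          refine commutator_le.2 fun a1 h1 a2 h2 => ?_
          rw [mem_comap, map_commutatorElement]
          exact commutator_mem_commutator (mul_mem (mul_mem hg h1) (inv_mem hg))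
            (mul_mem (mul_mem hg h2) (inv_mem hg))
        exact this hn
      · let φ : H →* center H := MonoidHom.mk'
          (fun g => ⟨⁅g, b⁆, mem_center_iff.2 (hcen _ (Ot g b hb))⟩) fun g1 g2 => Subtype.ext (by
            change ⁅g1 * g2, b⁆ = ⁅g1, b⁆ * ⁅g2, b⁆
            calc ⁅g1 * g2, b⁆ = (g1 * ⁅g2, b⁆) * g1⁻¹ * ⁅g1, b⁆ := by
                  simp only [commutatorElement_def]; group
              _ = ⁅g2, b⁆ * ⁅g1, b⁆ := by rw [hcen _ (Ot g2 b hb) g1]; group
              _ = _ := hcen _ (Ot g1 b hb) _)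
        have : ⁅L x a, L x a⁆ ≤ φ.ker := by
          refine commutator_le.2 fun a1 _ a2 _ => ?_
          rw [MonoidHom.mem_ker, map_commutatorElement, commutatorElement_eq_one_iff_mul_comm]
          exact Subtype.ext (mem_center_iff.1 (φ a2).2 _)
        have h1 : ⁅n, b⁆ = 1 := congrArg Subtype.val ((MonoidHom.mem_ker).1 (this hn))
        rw [← commutatorElement_eq_one_iff_mul_comm.1 h1, mul_inv_cancel_right]
        exact hn
    refine hne (h.form hs hcen hF LV fun g1 g2 => ?_)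
    have dec : ∀ g : H, ∃ a' ∈ L x a, ∃ v ∈ B, g = a' * v := fun g =>
      (mem_sup_iff fun a _ b hb => hB.conj_mem b hb a).1 (hK.symm ▸ mem_top g)
    have cq : ∀ g, ∀ b ∈ B, Commute (QuotientGroup.mk' V g) (QuotientGroup.mk' V b) := by
      intro g b hb
      rw [← commutatorElement_eq_one_iff_commute, ← map_commutatorElement]
      exact (QuotientGroup.eq_one_iff _).2 (Ot g b hb)
    obtain ⟨a1, ha1, v1, hv1, rfl⟩ := dec g1
    obtain ⟨a2, ha2, v2, hv2, rfl⟩ := dec g2
    rw [← QuotientGroup.eq_one_iff, ← QuotientGroup.mk'_apply, map_commutatorElement,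
      commutatorElement_eq_one_iff_commute, map_mul _ a2]
    refine Commute.mul_right ?_ (cq _ _ hv2)
    rw [map_mul]
    refine Commute.mul_left ?_ (cq _ _ hv1).symm
    have h1 : ⁅a1, a2⁆ ∈ ⁅L x a, L x a⁆ := commutator_mem_commutator ha1 ha2
    rw [hN, mem_bot, commutatorElement_eq_one_iff_commute] at h1
    exact h1.map _
  · have BC : ∀ b ∈ B, ∀ g ∈ O, g * b = b * g := fun b hb g hg =>
      (mem_inf.1 (e0.symm ▸ hb : b ∈ B ⊓ centralizer (O : Set H))).2 g hg
    have hc : ∀ a ∈ B, ∀ b ∈ B, a * b = b * a := fun a ha b hb => BC b hb a (BO ha)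
    have hnc : ⁅B, (⊤ : Subgroup H)⁆ ≠ ⊥ := by
      intro e
      have h1 : V ≤ Cm x B := all _ (normal_of_cen fun n hn g => by
        have h1 : ⁅n, g⁆ ∈ ⁅B, (⊤ : Subgroup H)⁆ :=
          commutator_mem_commutator (Cm_le_self hBs hn) (mem_top g)
        rw [e, mem_bot] at h1
        exact (commutatorElement_eq_one_iff_mul_comm.1 h1).symm) (stb_Cm B)
        fun e' => hB1 (e' ▸ bot_le)
      exact hne (eq_bot_iff.2 fun v hv => abel_inf h.cop h.hx hBs hc (h1 hv) (hF hv))
    obtain ⟨S', hS't, -, hK⟩ := h.uniq hB hBs hc hnc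
    obtain ⟨r, hr, R, hR, hBR, hRp, hRm⟩ := h.sylow' hBs hS't hK
    by_cases hrB : IsPGroup r B
    · have hRt : R = ⊤ := by rw [← hBR, eq_comm, sup_eq_right]; exact hRm B hB hrB
      have h1 : IsPGroup r (⊤ : Subgroup H) := hRt ▸ hRp
      have := (h1.of_equiv topEquiv).isNilpotent
      rcases hBmin (⁅B, (⊤ : Subgroup H)⁆ ⊔ V) inferInstance ((hBs.commutator stb_top).sup hs)
        le_sup_right (sup_le (commutator_le_left _ _) hVB.le) with e | e
      · apply hnc
        rw [eq_bot_iff, commutator_le]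
        intro b hb g _
        refine commutatorElement_eq_one_iff_mul_comm.2 (BC b hb g (hO.2 fun b' hb' => ?_)).symm
        rw [← commutatorElement_inv, ← e]
        exact inv_mem ((le_sup_left : _ ≤ ⁅B, (⊤ : Subgroup H)⁆ ⊔ V)
          (commutator_mem_commutator hb' (mem_top g)))
      · exact hVB.not_ge (nil_le e.ge)
    · obtain ⟨k, s, hs', e⟩ := Nat.exists_eq_pow_mul_and_not_dvd (Nat.card_pos (α := B)).ne' r
        hr.out.ne_one
      have hT : Tor B hc s ≠ ⊥ := by
        intro eT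
        refine hrB fun b => ⟨k, Subtype.ext ?_⟩
        have : (b : H) ^ r ^ k ∈ Tor B hc s := ⟨pow_mem b.2 _, by
          rw [← pow_mul, ← e]; exact congrArg Subtype.val (pow_card_eq_one' (x := b))⟩
        rw [eT, mem_bot] at this
        exact this
      have h1 := all _ (Tor_normal hB hc s) (Tor_stb hBs hc s) hT
      have h2 := all _ inferInstance (hBs.commutator stb_top) hnc
      refine hne (eq_bot_iff.2 fun v hv => ?_)
      have h3 := tr_case hc hBR (h2 hv) (hcen v hv)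
      obtain ⟨j, hj⟩ := hRp.exists_card_eq
      rw [hj] at h3
      have h4 : (r ^ j).Coprime s := ((Nat.Prime.coprime_iff_not_dvd hr.out).2 hs').pow_left j
      exact orderOf_eq_one_iff.1 (Nat.eq_one_of_dvd_coprimes h4 (orderOf_dvd_of_pow_eq_one h3)
        (orderOf_dvd_of_pow_eq_one (h1 hv).2))

end

theorem main {p : ℕ} [hp : Fact p.Prime] (hp2 : p ≠ 2) (n : ℕ) :
    ∀ (H : Type u) [Group H] [Finite H] [Group.IsSolvable H] (x : MulAut H), Nat.card H = n →
      (Nat.card H).Coprime p → x ^ p = 1 → Cm x ⊤ ⊓ Fx x ≤ D x := by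
  induction n using Nat.strong_induction_on with
  | _ n ih =>
  intro H _ _ _ x hn hcop hx
  have ihs : ∀ K, Stb x K → K ≠ ⊤ → Cm x K ⊓ Fx x ≤ D x := by
    intro K hK hKt
    obtain ⟨y, hy, hf⟩ := exists_sAut hx hK
    have hlt : Nat.card K < n := by
      rw [← hn, ← K.card_mul_index]
      exact lt_mul_of_one_lt_right Nat.card_pos (one_lt_index_of_ne_top hKt)
    have h1 := ih _ hlt K y rfl (hcop.coprime_dvd_left (card_subgroup_dvd_card K)) hy
    rintro c ⟨hc, hcf⟩
    have h2 := map_Cm K.subtype hf ⊤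
    rw [← MonoidHom.range_eq_map, range_subtype] at h2
    rw [← h2] at hc
    obtain ⟨c', hc', rfl⟩ := hc
    refine map_D K.subtype hf (mem_map_of_mem _ (h1 ⟨hc', ?_⟩))
    exact Subtype.ext ((hf c').trans hcf)
  by_cases htop : Cm x ⊤ = ⊤
  · by_contra hnle
    refine Ctx.false (p := p) (x := x) ⟨hp2, hcop, hx, htop, ihs, ?_,
      fun hle => hnle (inf_le_right.trans hle)⟩
    intro V hV hs hne c hc
    obtain ⟨y, hy, hf⟩ := exists_qAut hx hs
    have hlt : Nat.card (H ⧸ V) < n := by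
      rw [← hn, card_eq_card_quotient_mul_card_subgroup V]
      exact lt_mul_of_one_lt_right Nat.card_pos ((one_lt_card_iff_ne_bot V).2 hne)
    have h1 := ih _ hlt (H ⧸ V) y rfl (hcop.coprime_dvd_left (card_quotient_dvd_card V)) hy
    have h2 : Cm y ⊤ = ⊤ := by
      have := map_Cm _ hf ⊤
      rw [htop, map_top_of_surjective _ (QuotientGroup.mk'_surjective V)] at this
      exact this.symm
    have h3 : D y ≤ (D x).map (QuotientGroup.mk' V) := by
      refine iSup_le fun a => ?_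
      obtain ⟨a, rfl⟩ := QuotientGroup.mk'_surjective V a
      rintro w ⟨hw, hwf⟩
      rw [← map_L _ hf] at hw
      obtain ⟨w, hw, rfl⟩ := hw
      have h4 : w⁻¹ * x w ∈ V ⊓ L x a := by
        refine mem_inf.2 ⟨?_, mul_mem (inv_mem hw) (stb_L a w hw)⟩
        rw [← QuotientGroup.eq_one_iff, ← QuotientGroup.mk'_apply, map_mul, map_inv, hf,
          mem_Fx.1 hwf, inv_mul_cancel]
      obtain ⟨m, hm, hfix⟩ := exists_fix_coset hcop hx (hs.inf (stb_L a)) h4
      refine ⟨w * m, L_inf_le_D a (mem_inf.2 ⟨mul_mem hw (mem_inf.1 hm).2, hfix⟩), ?_⟩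
      rw [map_mul, QuotientGroup.mk'_apply V m, (QuotientGroup.eq_one_iff m).2 hm.1, mul_one]
    obtain ⟨d, hd, e⟩ := h3 (h1 (mem_inf.2 ⟨h2.symm ▸ mem_top _,
      show y (QuotientGroup.mk' V c) = QuotientGroup.mk' V c by rw [← hf, mem_Fx.1 hc]⟩))
    obtain ⟨v, hv, rfl⟩ := (QuotientGroup.mk'_eq_mk' V).1 e
    exact ⟨d, hd, v, mem_inf.2 ⟨hv, (mul_mem_cancel_left (D_le_Fx hd)).1 hc⟩, rfl⟩
  · exact (inf_le_inf_right _ (Cm_le_Cm_Cm hcop hx ⊤)).trans (ihs _ (stb_Cm ⊤) htop)

end Cfsg.Agent.FpC
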